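import Groth.Agent.Dix.InterNum
import Groth.Agent.Fga.ZeroClass
import Groth.Agent.Picfga.ZeroDiv
import Groth.Agent.CurvesC.GenPt
import Groth.Agent.CurvesC.InvSec
import Groth.Agent.VarietyA.ResMap

/-!
# The degree of a closed point where a section of an invertible module vanishes

`finrank_residueField_le`: if a nonzero section of the invertible module `L` on a proper integral curve vanishes at the
closed point `x` then `[κ(x) : k] ≤ deg L`.
-/

set_option autoImplicit false
universe u
open CategoryTheory CategoryTheory.Limits AlgebraicGeometry Opposite TopologicalSpace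

namespace Groth.Agent.Models.H57.PointDeg

open Groth.Agent.Picfga.ZeroDef Groth.Agent.Picfga.ZeroDiv Groth.Agent.Fdesc.LocGen

attribute [local instance] Curv2.resAlgebra

variable {X : Scheme.{u}} {L : X.Modules}

/-- The zero ideal of a nonzero section of an invertible module on an integral scheme is effective Cartier. -/
theorem isEffCartierIdeal_of_isZeroIdeal [IsIntegral X] (hL : PicF.IsInvertible L) {s : Γ(L, ⊤)} (hs : s ≠ 0)
    {I : X.IdealSheafData} (hI : IsZeroIdeal L s I) : BlowUp.IsEffCartierIdeal I := by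
  intro y
  obtain ⟨U, e, hyU, -, he⟩ := exists_affine_gen hL y ⊤ trivial
  obtain ⟨a, ha⟩ := he.exists_eq (res L le_top s)
  refine ⟨U, hyU, a, ?_, hI U e he a ha⟩
  have ha0 : a ≠ 0 := by
    rintro rfl
    rw [zero_smul] at ha
    exact hs (CurvesC.InvSec.eq_zero_of_res_eq_zero hL le_top ⟨y, hyU⟩ s ha)
  have : Nonempty U.1 := ⟨⟨y, hyU⟩⟩
  exact mem_nonZeroDivisors_of_ne_zero ha0

/-- Points where the section does not generate lie on the zero scheme. -/
theorem mem_support (hL : PicF.IsInvertible L) {s : Γ(L, ⊤)} {I : X.IdealSheafData} (hI : IsZeroIdeal L s I)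
    {x : X} (hx : x ∉ CurvesC.GenPt.loc s) : x ∈ I.support := by
  obtain ⟨U, e, hxU, -, he⟩ := exists_affine_gen hL x ⊤ trivial
  obtain ⟨a, ha⟩ := he.exists_eq (res L le_top s)
  have h1 := hI U e he a ha
  have he' : CurvesC.Gen.IsGen L U.1 e := he
  rw [CurvesC.GenPt.mem_loc_iff he' s ha.symm hxU, ← Scheme.mem_basicOpen] at hx
  rw [Scheme.IdealSheafData.mem_support_iff_of_mem hxU, h1, Scheme.zeroLocus_span, Scheme.mem_zeroLocus_iff]
  rintro f rfl
  exact hx

theorem finrank_residueField_le_quotMod (k : Type u) [Field k] (X : Scheme.{u}) [X.Over (Spec (CommRingCat.of k))]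
    (D : X.IdealSheafData) (hfin : IsFinite (D.subschemeι ≫ (X ↘ (Spec (CommRingCat.of k))))) {x : X}
    (hx : IsClosed ({x} : Set X)) (hxD : x ∈ D.support) :
    Module.finrank k (X.residueField x) ≤ Module.finrank k (Coh.HH X (ClSub.quotMod D) 0) := by
  rw [Dix.InterNum.finrank_quotMod]
  set f := X ↘ (Spec (CommRingCat.of k)) with hf
  let i := X.fromSpecResidueField x
  have hi : IsClosedImmersion i := isClosed_singleton_iff_isClosedImmersion.1 hx
  have hsurj : Surjective (pullback.fst i D.subschemeι) := by
    refine ⟨fun p => ?_⟩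
    have h1 : x ∈ Set.range D.subschemeι := by
      rw [Scheme.IdealSheafData.range_subschemeι]; exact hxD
    obtain ⟨z, hz⟩ := h1
    obtain ⟨q, hq, -⟩ := Scheme.Pullback.exists_preimage_pullback p z (by
      rw [hz]; exact Scheme.fromSpecResidueField_apply x p)
    exact ⟨q, hq⟩
  have hiso : IsIso (pullback.fst i D.subschemeι) := isIso_of_isClosedImmersion_of_surjective _
  let j : Spec (X.residueField x) ⟶ D.subscheme := inv (pullback.fst i D.subschemeι) ≫ pullback.snd i D.subschemeι
  have hj : j ≫ D.subschemeι = i := by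
    rw [Category.assoc, ← pullback.condition, IsIso.inv_hom_id_assoc]
  have hjc : IsClosedImmersion j := by
    have : IsClosedImmersion (j ≫ D.subschemeι) := hj ▸ hi
    exact IsClosedImmersion.of_comp j D.subschemeι
  have haff : IsAffine D.subscheme := isAffine_of_isAffineHom (D.subschemeι ≫ f)
  have hjs : Function.Surjective j.appTop := (IsClosedImmersion.isAffine_surjective_of_isAffine j).2
  let m1 : Module k Γ(D.subscheme, ⊤) :=
    Module.compHom Γ(D.subscheme, ⊤) (Dix.InterNum.glo (D.subschemeι ≫ f))
  change _ ≤ Module.finrank k Γ(D.subscheme, ⊤)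
  have hglo : ∀ t : k, (Scheme.ΓSpecIso (X.residueField x)).hom (Dix.InterNum.glo (i ≫ f) t) =
      Curv2.resMap k X x t := by
    intro t
    have h1 : i ≫ f = Spec.map (CommRingCat.ofHom (Curv2.resMap k X x)) :=
      (VarietyA.ResMap.specMap_resMap k X x).symm
    rw [h1]
    change (Scheme.ΓSpecIso (X.residueField x)).hom ((Spec.map (CommRingCat.ofHom (Curv2.resMap k X x))).appTop
      ((Scheme.ΓSpecIso (CommRingCat.of k)).inv t)) = _
    have h2 := congr($(Scheme.ΓSpecIso_inv_naturality (CommRingCat.ofHom (Curv2.resMap k X x))) t)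
    have h3 := congr((Scheme.ΓSpecIso (X.residueField x)).hom $h2)
    refine h3.symm.trans ?_
    exact (Scheme.ΓSpecIso (X.residueField x)).commRingCatIsoToRingEquiv.apply_symm_apply _
  let c : Γ(D.subscheme, ⊤) →ₗ[k] X.residueField x :=
    { toFun := fun z => (Scheme.ΓSpecIso (X.residueField x)).hom (j.appTop z)
      map_add' := fun a b => by rw [map_add, map_add]
      map_smul' := fun t z => by
        change (Scheme.ΓSpecIso (X.residueField x)).hom (j.appTop (Dix.InterNum.glo (D.subschemeι ≫ f) t * z)) =
          Curv2.resMap k X x t * _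
        rw [map_mul, map_mul, ← hglo]
        congr 2
        rw [← hj, Category.assoc]
        exact (Dix.InterNum.glo_comp j (D.subschemeι ≫ f) t).symm }
  have hc : Function.Surjective c :=
    (Scheme.ΓSpecIso (X.residueField x)).commRingCatIsoToRingEquiv.surjective.comp hjs
  have hfin' : Module.Finite k Γ(D.subscheme, ⊤) := by
    have h1 := Scheme.Hom.finite_appTop (D.subschemeι ≫ f)
    have h2 : (Scheme.ΓSpecIso (CommRingCat.of k)).inv.hom.Finite :=
      RingHom.Finite.of_surjective _ (ConcreteCategory.bijective_of_isIso (Scheme.ΓSpecIso (CommRingCat.of k)).inv).2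
    exact h1.comp h2
  exact LinearMap.finrank_le_finrank_of_surjective hc

/-- **Degree of a closed point where a section vanishes.** -/
theorem finrank_residueField_le (k : Type u) [Field k] (X : Scheme.{u}) [X.Over (Spec (CommRingCat.of k))]
    [IsIntegral X] [IsProper (X ↘ (Spec (CommRingCat.of k)))] (hdim : topologicalKrullDim X = 1)
    {L : X.Modules} (hL : PicF.IsInvertible L) {s : Γ(L, ⊤)} (hs : s ≠ 0) {x : X}
    (hx : IsClosed ({x} : Set X)) (hxs : x ∉ CurvesC.GenPt.loc s) :
    (Module.finrank k (X.residueField x) : ℤ) ≤ Curv2.deg k X L 1 := by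
  obtain ⟨I, hI⟩ := exists_zeroIdeal hL s
  have hE := isEffCartierIdeal_of_isZeroIdeal hL hs hI
  have hinv : ClSub.IsInverseOf L (ClSub.idealMod I) := Fga.ZeroClass.nonempty_iso hL s hI hE
  rw [Dix.InterNum.deg_of_effCartier k X hdim I hE L hinv]
  have hfin := (Groth.Agent.S1604.result k X hdim.le I hE L hL hinv 1 (Coh.structureModule X)
    (Ega2.QCohLocal.isFinLocFreeOfRank_one_iff.2 Fdesc.LocGen.isInvertible_structureModule)).1
  exact_mod_cast finrank_residueField_le_quotMod k X I hfin hx (mem_support hL hI hxs)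

end Groth.Agent.Models.H57.PointDeg
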