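import Groth.Agent.CurvesB.WeilSep

/-!
# Separable zeros of `φ - a` for a function `φ` with `dφ ≠ 0`
-/

set_option autoImplicit false

open TensorProduct

namespace Groth.Agent.Models.H57.SepPlace

open Groth.Agent.CurvesB.Weil

universe u v w x

variable {k : Type u} {K : Type v} [Field k] [Field K] [Algebra k K] {P : Type x}
variable {Pl : P → Place k K}

/-- If `k` is infinite and `dφ ≠ 0` then for some `a ∈ k` the function `φ - a` vanishes at a place with residue field
separable over `k`. -/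
theorem exists_separable_place (c : CurveData Pl) {v₀ : Place k K} (d₀ : LocalData v₀) [Infinite k] {φ : K}
    (hD : d₀.D φ ≠ 0) :
    ∃ x, ∃ a : k, (Pl x).InM (φ - algebraMap k K a) ∧ φ ≠ algebraMap k K a ∧
      Algebra.IsSeparable k ((Pl x).O ⧸ (Pl x).m) := by
  set Z : Set P := {x | ¬ ((c.d x).D φ ∈ (Pl x).O ∧ ((c.d x).D φ)⁻¹ ∈ (Pl x).O)} with hZ
  have hZfin : Z.Finite := by
    refine ((c.finite_e d₀).union (c.finite_unit (d₀.D φ))).subset fun x hx => ?_
    by_contra h
    simp only [Set.mem_union, Set.mem_ofPred_eq, not_or, not_not] at h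
    apply hx
    rw [c.D_eq d₀, mul_inv]
    exact ⟨(Pl x).O.mul_mem h.1.1 h.2.1, (Pl x).O.mul_mem h.1.2 h.2.2⟩
  have hT : {a : k | ∃ x ∈ Z, (Pl x).InM (φ - algebraMap k K a)}.Finite := by
    have : {a : k | ∃ x ∈ Z, (Pl x).InM (φ - algebraMap k K a)} =
        ⋃ x ∈ Z, {a : k | (Pl x).InM (φ - algebraMap k K a)} := by
      ext a; simp
    rw [this]
    refine hZfin.biUnion fun x _ => ?_
    exact Set.Subsingleton.finite fun a ha a' ha' => Place.eq_of_inM_sub ha ha'
  obtain ⟨a, ha⟩ := hT.exists_notMem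
  have hne : ∀ a : k, φ ≠ algebraMap k K a := fun a h => hD (by rw [h, Derivation.map_algebraMap])
  have hex : ∃ x, (Pl x).InM (φ - algebraMap k K a) := by
    by_contra hcon
    simp only [not_exists] at hcon
    obtain ⟨r, hr⟩ := c.h0 (φ - algebraMap k K a)⁻¹ fun x => Place.inv_mem_of_not_inM (hcon x)
    apply hne (a + r⁻¹)
    rw [map_add, map_inv₀, hr, inv_inv]; ring
  obtain ⟨x, hx⟩ := hex
  have hxZ : x ∉ Z := fun h => ha ⟨x, h, hx⟩
  refine ⟨x, a, hx, hne a, ?_⟩
  refine c.separable_of_der hx ?_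
  rw [map_sub, Derivation.map_algebraMap, sub_zero]
  rw [hZ, Set.mem_ofPred_eq, not_not] at hxZ
  refine Place.not_inM_of_inv_mem ?_ hxZ.2
  rw [c.D_eq d₀]
  exact mul_ne_zero (c.e_ne d₀ x) hD

end Groth.Agent.Models.H57.SepPlace
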