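import Groth.Agent.CurvesB.WeilModel
import Groth.Agent.CurvesC.RatGen
import Groth.Agent.CurvesB.HZero
import Groth.Agent.Models.H57.SepPlace

/-!
# Sections of an invertible module on a smooth proper curve vanishing at separable points

* `exists_section_vanishing`: if `φ = τ / σ` and `φ - a` vanishes at `x` then `τ - a σ` does not generate at `x`;
* `exists_derivation_ne_zero`: some ratio `τ / σ` is not killed by a nonzero derivation, if `H^1(X, O_X) = 0`;
* `exists_separable_zero`: `k` infinite, `H^1(X, O_X) = 0`: some nonzero section vanishes at a point with residue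
  field separable over `k`.
-/

set_option autoImplicit false
universe u
open CategoryTheory CategoryTheory.Limits AlgebraicGeometry Opposite TopologicalSpace

namespace Groth.Agent.Models.H57.SecPoint

open Groth.Agent.CurvesC Groth.Agent.CurvesC.Gen Groth.Agent.CurvesC.GenPt Groth.Agent.CurvesB.HZero
open Groth.Agent.CurvesB.OmegaStalkDict Groth.Agent.CurvesB.SmoothCurveFacts
  Groth.Agent.CurvesB.Weil Groth.Agent.CurvesB.WeilModel Groth.Agent.CurvesB.WeilModelAlg
  Groth.Agent.CurvesB.OnePointFam

section Ratio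

variable {X : Scheme.{u}} {L : X.Modules}

theorem germ_res {U V : X.Opens} (h : U ≤ V) (y : X) (hy : y ∈ U) (a : Γ(X, V)) :
    X.presheaf.germ U y hy (X.presheaf.map (homOfLE h).op a) = X.presheaf.germ V y (h hy) a :=
  TopCat.Presheaf.germ_res_apply _ _ _ _ _

theorem germ_eq_mul (σ τ : Γ(L, ⊤)) (r : Γ(X, loc σ))
    (hr : r • L.presheaf.map (homOfLE (le_top : loc σ ≤ ⊤)).op σ =
      L.presheaf.map (homOfLE (le_top : loc σ ≤ ⊤)).op τ)
    {W : X.Opens} {e : Γ(L, W)} (he : IsGen L W e) {b c : Γ(X, W)}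
    (hb : b • e = L.presheaf.map (homOfLE (le_top : W ≤ ⊤)).op σ)
    (hc : c • e = L.presheaf.map (homOfLE (le_top : W ≤ ⊤)).op τ) {y : X} (hy1 : y ∈ loc σ) (hy2 : y ∈ W) :
    X.presheaf.germ W y hy2 c = X.presheaf.germ (loc σ) y hy1 r * X.presheaf.germ W y hy2 b := by
  have he' := he.mono (inf_le_right : loc σ ⊓ W ≤ W)
  have h1 : X.presheaf.map (homOfLE (inf_le_left : loc σ ⊓ W ≤ loc σ)).op r *
      X.presheaf.map (homOfLE (inf_le_right : loc σ ⊓ W ≤ W)).op b =
      X.presheaf.map (homOfLE (inf_le_right : loc σ ⊓ W ≤ W)).op c := by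
    apply he'.injective
    rw [mul_smul, ← map_smul_section, hb, map_map_section,
      ← map_map_section L (inf_le_left : loc σ ⊓ W ≤ loc σ) (le_top : loc σ ≤ ⊤), ← map_smul_section, hr,
      map_map_section, ← map_smul_section, hc, map_map_section]
  have h2 := congr(X.presheaf.germ (loc σ ⊓ W) y ⟨hy1, hy2⟩ $h1)
  rw [map_mul, germ_res, germ_res, germ_res] at h2
  exact h2.symm

end Ratio

section Main

attribute [local instance] Groth.Agent.CurvesB.OmegaGeneric.stalkAlgebra

variable (k : Type u) [Field k] (X : Scheme.{u}) [X.Over (Spec (CommRingCat.of k))] [IsIntegral X]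

theorem genericPoint_mem {U : X.Opens} {y : X} (hy : y ∈ U) : genericPoint X ∈ U :=
  ((genericPoint_spec X).mem_open_set_iff U.2).2 ⟨y, trivial, hy⟩

theorem algebraMap_germ {U : X.Opens} {y : X} (hy : y ∈ U) (hg : genericPoint X ∈ U) (a : Γ(X, U)) :
    algebraMap (X.presheaf.stalk y) X.functionField (X.presheaf.germ U y hy a) =
      X.presheaf.germ U (genericPoint X) hg a := by
  have : Nonempty U := ⟨⟨y, hy⟩⟩
  exact Scheme.algebraMap_germ_eq_germToFunctionField X (U := U) hy a

omit [IsIntegral X] in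
theorem germ_gl {U : X.Opens} {y : X} (hy : y ∈ U) (a : k) :
    X.presheaf.germ U y hy (X.presheaf.map (homOfLE (le_top : U ≤ ⊤)).op (gl k X a)) =
      algebraMap k (X.presheaf.stalk y) a :=
  germ_res _ _ _ _

variable {X} {L : X.Modules} (hL : PicF.IsInvertible L)

include hL in
/-- If `φ = τ / σ` and `φ - a` vanishes at `x` then `τ - a σ` does not generate at `x`. -/
theorem notMem_loc [Smooth (X ↘ Spec (CommRingCat.of k))] (hdim : topologicalKrullDim X = 1) (x : Pl X)
    {σ τ : Γ(L, ⊤)} (hg : genericPoint X ∈ loc σ) (r : Γ(X, loc σ))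
    (hr : r • L.presheaf.map (homOfLE (le_top : loc σ ≤ ⊤)).op σ =
      L.presheaf.map (homOfLE (le_top : loc σ ≤ ⊤)).op τ) (a : k)
    (h : (plc k X hdim x).InM (X.presheaf.germ (loc σ) (genericPoint X) hg r -
      algebraMap k X.functionField a)) : x.1 ∉ loc (τ - gl k X a • σ) := by
  have := isDVR k X hdim x
  obtain ⟨W, hxW, e, he⟩ := exists_isGen hL x.1
  obtain ⟨b, hb⟩ := he.exists_eq (L.presheaf.map (homOfLE (le_top : W ≤ ⊤)).op σ)
  obtain ⟨c, hc⟩ := he.exists_eq (L.presheaf.map (homOfLE (le_top : W ≤ ⊤)).op τ)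
  have hgW : genericPoint X ∈ W := genericPoint_mem X hxW
  have h1 := germ_eq_mul σ τ r hr he hb hc hg hgW
  have h2 : (c - X.presheaf.map (homOfLE (le_top : W ≤ ⊤)).op (gl k X a) * b) • e =
      L.presheaf.map (homOfLE (le_top : W ≤ ⊤)).op (τ - gl k X a • σ) := by
    rw [sub_smul, mul_smul, hb, hc, map_sub, map_smul_section]
  rw [mem_loc_iff he _ h2 hxW]
  obtain ⟨m, hm⟩ : _ ∈ Set.range (algebraMap (X.presheaf.stalk x.1) X.functionField) := h.mem
  rw [← hm] at h
  have hm' : m ∈ IsLocalRing.maximalIdeal (X.presheaf.stalk x.1) :=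
    (inM_place_iff k (X.presheaf.stalk x.1) X.functionField m).1 h
  have key : X.presheaf.germ W x.1 hxW (c - X.presheaf.map (homOfLE (le_top : W ≤ ⊤)).op (gl k X a) * b) =
      m * X.presheaf.germ W x.1 hxW b := by
    apply IsFractionRing.injective (X.presheaf.stalk x.1) X.functionField
    rw [map_mul, algebraMap_germ X hxW hgW, algebraMap_germ X hxW hgW, hm, map_sub, map_mul, germ_gl, h1]
    ring
  intro hu
  rw [key] at hu
  exact (IsLocalRing.mem_maximalIdeal m).1 hm' (isUnit_of_mul_isUnit_left hu)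

include hL in
/-- Some ratio `τ / σ` is not killed by a nonzero derivation. -/
theorem exists_derivation_ne_zero [IsNoetherian X] (hdim : topologicalKrullDim X ≤ 1)
    (h0 : Module.finrank k (Coh.HH X (Coh.structureModule X) 0) = 1)
    (h1 : Subsingleton (Coh.HH X (Coh.structureModule X) 1)) {σ : Γ(L, ⊤)} (hσ : σ ≠ 0)
    (hg : genericPoint X ∈ loc σ)
    {U : X.Opens} (hU : IsAffineOpen U) (hσU : loc σ ≤ U)
    (D : Derivation k X.functionField X.functionField) (hD : D ≠ 0) :
    ∃ (τ : Γ(L, ⊤)) (r : Γ(X, loc σ)), r • L.presheaf.map (homOfLE (le_top : loc σ ≤ ⊤)).op σ =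
      L.presheaf.map (homOfLE (le_top : loc σ ≤ ⊤)).op τ ∧
      D (X.presheaf.germ (loc σ) (genericPoint X) hg r) ≠ 0 := by
  by_contra hcon
  push Not at hcon
  obtain ⟨t, ht⟩ := exists_complement hdim h1 hL hσ
  let S : Subring Γ(X, loc σ) :=
    { carrier := {a | D (X.presheaf.germ (loc σ) (genericPoint X) hg a) = 0}
      mul_mem' := fun {a b} ha hb => by
        change D _ = 0
        rw [map_mul, D.leibniz, ha, hb, smul_zero, smul_zero, add_zero]
      one_mem' := by
        change D _ = 0
        rw [map_one, D.map_one_eq_zero]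
      add_mem' := fun {a b} ha hb => by
        change D _ = 0
        rw [map_add, map_add, ha, hb, add_zero]
      zero_mem' := by
        change D _ = 0
        rw [map_zero, map_zero]
      neg_mem' := fun {a} ha => by
        change D _ = 0
        rw [map_neg, map_neg, ha, neg_zero] }
  have hS : ∀ a : Γ(X, loc σ), a ∈ S := by
    refine RatGen.mem_of_complement h1 σ t ht (NoetherianSpace.isCompact _)
      (IsQuasiSeparated.of_quasiSeparatedSpace _) S ?_ ?_
    · intro c
      obtain ⟨c, rfl⟩ := exists_const k h0 c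
      change D _ = 0
      rw [germ_gl, D.map_algebraMap]
    · intro τ a ha
      exact hcon τ a ha
  have hgU : genericPoint X ∈ U := hσU hg
  have : Nonempty U := ⟨⟨_, hgU⟩⟩
  have hfrac := functionField_isFractionRing_of_isAffineOpen X U hU
  have hU0 : ∀ a : Γ(X, U), D (algebraMap Γ(X, U) X.functionField a) = 0 := by
    intro a
    have h2 := hS (X.presheaf.map (homOfLE hσU).op a)
    change D _ = 0 at h2
    rw [germ_res] at h2
    exact h2
  apply hD
  ext c
  obtain ⟨a, b, hb, rfl⟩ := IsFractionRing.div_surjective (A := Γ(X, U)) c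
  rw [Derivation.leibniz_div, hU0, hU0, smul_zero, smul_zero, sub_zero, smul_zero]
  rfl

end Main

end Groth.Agent.Models.H57.SecPoint
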