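import Groth.Agent.S1612
import Groth.Agent.S1635
import Groth.Agent.CurvesB.OmegaInv
import Groth.Agent.CurvesB.UnitCoh
import Groth.Agent.Grpsch.PicGrp
import Groth.Agent.Dix.InterNum
import Groth.Agent.Models.H57.PointDeg
import Groth.Agent.Models.H57.SecPoint

/-!
# Separable points of degree at most two on curves of genus zero
-/

set_option autoImplicit false
universe u
open CategoryTheory CategoryTheory.Limits AlgebraicGeometry Opposite TopologicalSpace

namespace Groth.Agent.Models.H57.ConicPoint

open Groth.Agent.CurvesC Groth.Agent.CurvesC.Gen Groth.Agent.CurvesC.GenPt Groth.Agent.CurvesB.HZero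
open Groth.Agent.CurvesB.OmegaStalkDict Groth.Agent.CurvesB.SmoothCurveFacts
  Groth.Agent.CurvesB.Weil Groth.Agent.CurvesB.WeilModel Groth.Agent.CurvesB.WeilModelAlg
  Groth.Agent.CurvesB.WeilModelSep

attribute [local instance] Curv2.resAlgebra Groth.Agent.CurvesB.OmegaGeneric.stalkAlgebra

/-- A curve of genus zero has an invertible module of degree two (the tangent sheaf). -/
theorem exists_degree_two (k : Type u) [Field k] (X : Scheme.{u}) [X.Over (Spec (CommRingCat.of k))]
    (hX : Curve.IsSmoothProperCurve k X (X ↘ (Spec (CommRingCat.of k))))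
    (h0 : Module.finrank k (Coh.HH X (Coh.structureModule X) 0) = 1) (hg : Curv2.genus k X = 0) :
    ∃ L : X.Modules, PicF.IsInvertible L ∧ Curv2.deg k X L 1 = 2 := by
  have h1 := (Groth.Agent.S1612.result k X hX h0).2
  obtain ⟨hp, hs, hi, hdim⟩ := hX
  have hΩ : PicF.IsInvertible (Omega.sheaf (X ↘ (Spec (CommRingCat.of k)))) :=
    CurvesB.OmegaInv.isInvertible_omega _ hdim
  obtain ⟨L, hL, e⟩ := Grpsch.PicGrp.exists_inverse hΩ
  refine ⟨L, hL, ?_⟩
  have h2 := Dix.InterNum.deg_inverse k X hdim e
  rw [h1, hg] at h2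
  push_cast at h2
  linarith

/-- **Separable points of degree at most two on curves of genus zero.** -/
theorem exists_separable_point (k : Type u) [Field k] (X : Scheme.{u}) [X.Over (Spec (CommRingCat.of k))]
    (hX : Curve.IsSmoothProperCurve k X (X ↘ (Spec (CommRingCat.of k))))
    (h0 : Module.finrank k (Coh.HH X (Coh.structureModule X) 0) = 1) (hg : Curv2.genus k X = 0) :
    ∃ x : X, IsClosed ({x} : Set X) ∧ Algebra.IsSeparable k (X.residueField x) ∧
      Module.finrank k (X.residueField x) ≤ 2 ∧ FiniteDimensional k (X.residueField x) := by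
  obtain ⟨L, hL, hdeg⟩ := exists_degree_two k X hX h0 hg
  obtain ⟨hp, hs, hi, hdim⟩ := hX
  have hN : CompactSpace X := QuasiCompact.compactSpace_of_compactSpace (X ↘ Spec (CommRingCat.of k))
  have hN' : IsLocallyNoetherian X :=
    LocallyOfFiniteType.isLocallyNoetherian (X ↘ Spec (CommRingCat.of k))
  have hN'' : IsNoetherian X := {}
  have h1 := Groth.Agent.S1635.h1_structure k X hg
  have hfr := (Groth.Agent.S1635.result k X hdim h0 hg L hL 2 two_pos (by exact_mod_cast hdeg)).1
  -- a nonzero section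
  have hnt : Nontrivial (Coh.HH X L 0) := Module.nontrivial_of_finrank_pos (R := k) (by omega)
  obtain ⟨v, hv⟩ := exists_ne (0 : Coh.HH X L 0)
  set σ : Γ(L, ⊤) := equivAdd L v with hσdef
  have hσ : σ ≠ 0 := fun h => hv ((equivAdd L).injective (h.trans (map_zero _).symm))
  -- a zero
  have hne : loc σ ≠ ⊤ := by
    intro h
    have hiso : IsIso (ofSec σ) := by
      rw [isIso_iff_isGen, ← le_genLocus_iff]
      exact h.ge
    have h2 := Dix.InterNum.deg_congr k X hdim (asIso (ofSec σ))
    rw [Dix.InterNum.deg_unit, hdeg] at h2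
    norm_num at h2
  obtain ⟨x₀, hx₀⟩ : ∃ x₀ : X, x₀ ∉ loc σ := by
    by_contra hcon
    push Not at hcon
    exact hne (eq_top_iff.2 fun x _ => hcon x)
  have hbot : loc σ ≠ ⊥ := loc_ne_bot hL hσ
  obtain ⟨y, hy⟩ : ∃ y : X, y ∈ loc σ := by
    by_contra hcon
    push Not at hcon
    exact hbot (eq_bot_iff.2 fun x hx => (hcon x hx).elim)
  have hgen : genericPoint X ∈ loc σ := SecPoint.genericPoint_mem X hy
  have hx₀' : x₀ ≠ genericPoint X := by
    rintro rfl
    exact hx₀ hgen
  have hx₀c := isClosed_pl X hdim ⟨x₀, hx₀'⟩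
  rcases finite_or_infinite k with hk | hk
  · -- finite fields are perfect
    have hfin : FiniteDimensional k (X.residueField x₀) := by
      have := resFin k X hdim ⟨x₀, hx₀'⟩
      exact Module.Finite.equiv (residueEquiv k X hdim ⟨x₀, hx₀'⟩).symm.toLinearEquiv
    have : Algebra.IsAlgebraic k (X.residueField x₀) := Algebra.IsAlgebraic.of_finite k _
    refine ⟨x₀, hx₀c, inferInstance, ?_, hfin⟩
    have h2 := PointDeg.finrank_residueField_le k X hdim hL hσ hx₀c hx₀
    rw [hdeg] at h2
    exact_mod_cast h2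
  · obtain ⟨c⟩ := nonempty_curveData k X hdim h0
    let d₀ := c.d ⟨x₀, hx₀'⟩
    have hD : d₀.D ≠ 0 := by
      intro h
      have h2 := d₀.D_t
      rw [h] at h2
      exact zero_ne_one h2
    obtain ⟨τ, r, hr, hDr⟩ := SecPoint.exists_derivation_ne_zero k hL hdim.le h0 h1 hσ hgen
      (CurvesB.SmoothCurvePole.isAffineOpen_compl_singleton (k := k) hdim hx₀c)
      (fun y hy h => hx₀ ((show y = x₀ from h) ▸ hy)) d₀.D hD
    obtain ⟨x, a, hxM, hxa, hsep⟩ := SepPlace.exists_separable_place c d₀ hDr
    have hx1 := SecPoint.notMem_loc k hL hdim x hgen r hr a hxM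
    have hne' : τ - gl k X a • σ ≠ 0 := by
      intro h
      rw [sub_eq_zero] at h
      apply hxa
      have hgenσ : IsGen L (loc σ) (L.presheaf.map (homOfLE (le_top : loc σ ≤ ⊤)).op σ) := by
        rw [← sec_ofSec]; exact isGen_genLocus _
      have h2 : r = X.presheaf.map (homOfLE (le_top : loc σ ≤ ⊤)).op (gl k X a) := by
        apply hgenσ.injective
        rw [hr, h, map_smul_section]
      rw [h2, SecPoint.germ_gl]
    have hxc := isClosed_pl X hdim x
    have h3 := resFin k X hdim x
    let e := residueEquiv k X hdim x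
    refine ⟨x.1, hxc, AlgEquiv.Algebra.isSeparable e.symm, ?_, Module.Finite.equiv e.symm.toLinearEquiv⟩
    have h2 := PointDeg.finrank_residueField_le k X hdim hL hne' hxc hx1
    rw [hdeg] at h2
    exact_mod_cast h2

end Groth.Agent.Models.H57.ConicPoint
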