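import Groth.Prelude.Def_Curve
import Groth.Agent.Picfga.H0
import Groth.Agent.Etcore.DimBaseChange
import Groth.Agent.Dix.NormalLoc
import Groth.Agent.Ega1.GenPts
import Groth.Agent.CurvesC.PointScheme
import Groth.Agent.CurvesB.HZero

/-!
# Base change of smooth proper curves with `H^0(X, O_X) = k`

`X → Spec k` smooth, proper, integral of dimension one with `k = Γ(X, O_X)`: for every field extension
`ψ : k → k'` the base change is again such a curve.
-/

set_option autoImplicit false
universe u
open CategoryTheory CategoryTheory.Limits AlgebraicGeometry Opposite TopologicalSpace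

namespace Groth.Agent.Models.H57.GeoInt

/-- A scheme with `Γ(X, O_X)` a field is connected. -/
theorem connectedSpace_of_isField {X : Scheme.{u}} (h : IsField Γ(X, ⊤)) : ConnectedSpace X := by
  let _ := h.toField
  have hne : Nonempty X := by
    by_contra hne
    rw [not_nonempty_iff] at hne
    have h2 : Subsingleton Γ(X, ⊤) := inferInstance
    exact not_subsingleton Γ(X, ⊤) h2
  refine CurvesC.PointScheme.connectedSpace_of_idem fun e he => ?_
  have h3 : e * (e - 1) = 0 := by rw [mul_sub, mul_one, he.eq, sub_self]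
  rcases mul_eq_zero.1 h3 with h4 | h4
  · exact Or.inl h4
  · exact Or.inr (sub_eq_zero.1 h4)

variable {k : Type u} [Field k] {X : Scheme.{u}} (f : X ⟶ Spec (CommRingCat.of k))

/-- A scheme smooth over a field with `Γ(X, O_X)` a field is integral. -/
theorem isIntegral_of_smooth_of_isField [Smooth f] (h : IsField Γ(X, ⊤)) : IsIntegral X := by
  have h1 : IsLocallyNoetherian X := LocallyOfFiniteType.isLocallyNoetherian f
  have hconn := connectedSpace_of_isField h
  exact (Ega1.GenPts.isIntegral_iff X).2 ⟨inferInstance, fun x => (Dix.NormalLoc.stalk_of_smooth f x).1⟩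

theorem isField_of_isIso_appTop (h : IsIso f.appTop) : IsField Γ(X, ⊤) := by
  let e : k ≃+* Γ(X, ⊤) :=
    ((Scheme.ΓSpecIso (CommRingCat.of k)).symm ≪≫ asIso f.appTop).commRingCatIsoToRingEquiv
  exact e.symm.toMulEquiv.isField (Field.toIsField k)

/-- Base change of a smooth proper curve with `H^0 = k` along a field extension. -/
theorem isSmoothProperCurve_pullback (hX : Curve.IsSmoothProperCurve k X f) (h : IsIso f.appTop)
    {k' : Type u} [Field k'] (ψ : k →+* k') :
    Curve.IsSmoothProperCurve k' (pullback f (Spec.map (CommRingCat.ofHom ψ)))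
      (pullback.snd f (Spec.map (CommRingCat.ofHom ψ))) ∧
      IsIso (pullback.snd f (Spec.map (CommRingCat.ofHom ψ))).appTop := by
  obtain ⟨h1, h2, h3, h4⟩ := hX
  have hc : CompactSpace X := (quasiCompact_iff_compactSpace f).mp inferInstance
  have hq : QuasiSeparatedSpace X := (quasiSeparated_iff_quasiSeparatedSpace f).mp inferInstance
  have hiso : IsIso (pullback.snd f (Spec.map (CommRingCat.ofHom ψ))).appTop :=
    Picfga.H0.isIso_app f h (Over.mk (Spec.map (CommRingCat.ofHom ψ))) ⊤
  refine ⟨⟨inferInstance, inferInstance, ?_, ?_⟩, hiso⟩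
  · exact isIntegral_of_smooth_of_isField (pullback.snd f (Spec.map (CommRingCat.ofHom ψ)))
      (isField_of_isIso_appTop _ hiso)
  · rw [← h4]
    exact Etcore.DimBaseChange.topologicalKrullDim_eq (Field.toIsField k) (Field.toIsField k') f
      (pullback.snd f _) (pullback.fst f _) _ (IsPullback.of_hasPullback _ _)

/-- `h^0(O) = 1` when the global functions are the constants. -/
theorem finrank_H0 (k : Type u) [Field k] (X : Scheme.{u}) [X.Over (Spec (CommRingCat.of k))]
    (h : IsIso (X ↘ Spec (CommRingCat.of k)).appTop) :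
    Module.finrank k (Coh.HH X (Coh.structureModule X) 0) = 1 := by
  have hfld := isField_of_isIso_appTop _ h
  have hgl : Function.Surjective (CurvesB.HZero.gl k X) := by
    have h2 : (CurvesB.HZero.gl k X : k → Γ(X, ⊤)) =
      ((X ↘ Spec (CommRingCat.of k)).appTop : Γ(Spec (CommRingCat.of k), ⊤) → Γ(X, ⊤)) ∘
        (Scheme.ΓSpecIso (CommRingCat.of k)).inv := rfl
    rw [h2]
    exact (ConcreteCategory.bijective_of_isIso _).2.comp (ConcreteCategory.bijective_of_isIso _).2
  rw [finrank_eq_one_iff']
  refine ⟨(CurvesB.HZero.equivO X).symm 1, ?_, fun w => ?_⟩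
  · intro h
    have h1 : (1 : Γ(X, ⊤)) = 0 := by
      rw [← (CurvesB.HZero.equivO X).apply_symm_apply 1, h, map_zero]
    let _ := hfld.toField
    exact one_ne_zero h1
  · obtain ⟨c, hc⟩ := hgl (CurvesB.HZero.equivO X w)
    refine ⟨c, ?_⟩
    apply (CurvesB.HZero.equivO X).injective
    rw [CurvesB.HZero.equivO_smul, (CurvesB.HZero.equivO X).apply_symm_apply, mul_one, hc]

end Groth.Agent.Models.H57.GeoInt
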