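import Groth.Agent.S1636
import Groth.Agent.CohqA.ProjDim
import Groth.Agent.Sga5.ProjSmooth
import Groth.Agent.CurvesB.DimOneTop
import Mathlib.RingTheory.KrullDimension.Polynomial

/-!
# A genus zero curve with an invertible module of degree one is the projective line
-/

set_option autoImplicit false
universe u
open CategoryTheory CategoryTheory.Limits AlgebraicGeometry TopologicalSpace

namespace Groth.Agent.Models.H57.P1End

/-- A closed immersion of an integral curve into an irreducible curve is surjective. -/
theorem surjective_of_dim {C P : Scheme.{u}} (i : C ⟶ P) [IsClosedImmersion i] [IrreducibleSpace P]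
    (hC : topologicalKrullDim C = 1) (hP : topologicalKrullDim P = 1) : Surjective i := by
  obtain ⟨⟨x, y, hxy, hne⟩, -⟩ := CurvesB.DimOneTop.topologicalKrullDim_eq_one_iff.1 hC
  obtain ⟨-, h2⟩ := CurvesB.DimOneTop.topologicalKrullDim_eq_one_iff.1 hP
  have h3 : ∀ z, z ⤳ i x → z = i x := by
    refine (h2 (i x)).resolve_left fun h => hne ?_
    exact i.isClosedEmbedding.injective (h _ (hxy.map i.continuous))
  have h4 : genericPoint P = i x := h3 _ ((genericPoint_spec P).specializes trivial)
  refine ⟨Set.range_eq_univ.1 (Set.eq_univ_of_univ_subset ?_)⟩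
  rw [← (genericPoint_spec P).def, h4]
  exact closure_minimal (by rintro _ rfl; exact ⟨x, rfl⟩) i.isClosedEmbedding.isClosed_range

theorem topologicalKrullDim_P1 (k : Type u) [Field k] : topologicalKrullDim (CohB1.ProjSpace 1 k) = 1 := by
  refine le_antisymm (CohqA.ProjDim.topologicalKrullDim_le k 1) ?_
  have h1 := (Sga5.ProjSmooth.chart 1 k 0).isOpenEmbedding.isInducing.topologicalKrullDim_le
  refine le_trans ?_ h1
  have h2 : topologicalKrullDim (Spec (CommRingCat.of (MvPolynomial (Fin 1) k))) =
      ringKrullDim (MvPolynomial (Fin 1) k) :=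
    PrimeSpectrum.topologicalKrullDim_eq_ringKrullDim _
  rw [h2, MvPolynomial.ringKrullDim_of_isNoetherianRing, ringKrullDim_eq_zero_of_field]
  simp

/-- A genus zero curve with `H^0(X, O_X) = k` and an invertible module of degree one is isomorphic to `P^1_k`. -/
theorem exists_iso (k : Type u) [Field k] (X : Scheme.{u}) [X.Over (Spec (CommRingCat.of k))]
    [IsIntegral X] [IsProper (X ↘ (Spec (CommRingCat.of k)))] (hdim : topologicalKrullDim X = 1)
    (h0 : Module.finrank k (Coh.HH X (Coh.structureModule X) 0) = 1) (hg : Curv2.genus k X = 0)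
    (L : X.Modules) (hL : PicF.IsInvertible L) (hdeg : Curv2.deg k X L 1 = 1) :
    ∃ e : X ≅ CohB1.ProjSpace 1 k, e.hom ≫ CohB1.ProjSpace.toSpec 1 k = X ↘ (Spec (CommRingCat.of k)) := by
  obtain ⟨i, hi, hi2, -⟩ := Groth.Agent.S1636.result k X hdim h0 hg L hL 1 one_pos (by exact_mod_cast hdeg)
  have h1 : IsIntegral (CohB1.ProjSpace 1 k) := inferInstance
  have h2 := surjective_of_dim i hdim (topologicalKrullDim_P1 k)
  have h3 : IsIso i := isIso_of_isClosedImmersion_of_surjective i
  exact ⟨asIso i, hi2⟩

end Groth.Agent.Models.H57.P1End
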