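import Groth.Agent.Fga.JacSum
import Groth.Agent.Dix.InterNum
import Groth.Agent.Grpsch.PicGrp
import Groth.Agent.Picfga.CurveRelDim
import Groth.Agent.Models.H57.GeoInt

/-!
# Rational points give invertible modules of degree one
-/

set_option autoImplicit false
universe u
open CategoryTheory CategoryTheory.Limits AlgebraicGeometry Opposite TopologicalSpace

namespace Groth.Agent.Models.H57.RatPoint

/-- `h^0(Spec k) = 1`. -/
theorem h0_id (k : Type u) [Field k] : Dix.InterNum.h0 (𝟙 (Spec (CommRingCat.of k))) = 1 := by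
  let m1 : Module k Γ(Spec (CommRingCat.of k), ⊤) :=
    Module.compHom _ (Dix.InterNum.glo (𝟙 (Spec (CommRingCat.of k))))
  change Module.finrank k Γ(Spec (CommRingCat.of k), ⊤) = 1
  have hglo : ∀ t : k, Dix.InterNum.glo (𝟙 (Spec (CommRingCat.of k))) t =
      (Scheme.ΓSpecIso (CommRingCat.of k)).inv t := by
    intro t
    change (𝟙 (Spec (CommRingCat.of k)) : Spec (CommRingCat.of k) ⟶ _).appTop.hom _ = _
    rw [Scheme.Hom.id_appTop]
    rfl
  let e : k ≃ₗ[k] Γ(Spec (CommRingCat.of k), ⊤) :=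
    { (Scheme.ΓSpecIso (CommRingCat.of k)).symm.commRingCatIsoToRingEquiv.toAddEquiv with
      map_smul' := fun t x => by
        change (Scheme.ΓSpecIso (CommRingCat.of k)).inv (t * x) =
          Dix.InterNum.glo (𝟙 (Spec (CommRingCat.of k))) t * (Scheme.ΓSpecIso (CommRingCat.of k)).inv x
        rw [hglo, map_mul] }
  rw [← e.finrank_eq, Module.finrank_self]

/-- A `k'`-valued point of a smooth proper curve `X` over `k` gives an invertible module of degree one on
`X_{k'}`. -/
theorem exists_degree_one {k : Type u} [Field k] {X : Scheme.{u}} (f : X ⟶ Spec (CommRingCat.of k))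
    (hX : Curve.IsSmoothProperCurve k X f) {k' : Type u} [Field k'] (ψ : k →+* k')
    (hX' : Curve.IsSmoothProperCurve k' (pullback f (Spec.map (CommRingCat.ofHom ψ)))
      (pullback.snd f (Spec.map (CommRingCat.ofHom ψ))))
    (x : Spec (CommRingCat.of k') ⟶ X) (hx : x ≫ f = Spec.map (CommRingCat.ofHom ψ)) :
    letI : (pullback f (Spec.map (CommRingCat.ofHom ψ))).Over (Spec (CommRingCat.of k')) :=
      ⟨pullback.snd f (Spec.map (CommRingCat.ofHom ψ))⟩
    ∃ L : (pullback f (Spec.map (CommRingCat.ofHom ψ))).Modules, PicF.IsInvertible L ∧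
      Curv2.deg k' (pullback f (Spec.map (CommRingCat.ofHom ψ))) L 1 = 1 := by
  let _ : (pullback f (Spec.map (CommRingCat.ofHom ψ))).Over (Spec (CommRingCat.of k')) :=
      ⟨pullback.snd f (Spec.map (CommRingCat.ofHom ψ))⟩
  obtain ⟨h1, h2, h3, h4⟩ := hX
  obtain ⟨h1', h2', h3', h4'⟩ := hX'
  have hrel : SmoothOfRelativeDimension 1 f :=
    Picfga.CurveRelDim.smoothOfRelativeDimension_of_topologicalKrullDim_eq k X f 1 (by simpa using h4)
  let T : Over (Spec (CommRingCat.of k)) := Over.mk (Spec.map (CommRingCat.ofHom ψ))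
  let I : (pullback f (Spec.map (CommRingCat.ofHom ψ))).IdealSheafData := HilbD.secGraph f T x hx
  have hI : BlowUp.IsEffCartierIdeal I := Fga.JacSum.isEff_secGraph f (T := T) ⟨x, hx⟩
  have hIinv := Dix.IdealModCartier.isInvertible_idealMod hI
  obtain ⟨L, hL, ⟨e⟩⟩ := Grpsch.PicGrp.exists_inverse hIinv
  have hLI : ClSub.IsInverseOf L (ClSub.idealMod I) := ⟨Ega2.Tens.swap _ _ ≪≫ e⟩
  have hprop : IsProper ((pullback f (Spec.map (CommRingCat.ofHom ψ))) ↘ Spec (CommRingCat.of k')) := h1'
  have hint : IsIntegral (pullback f (Spec.map (CommRingCat.ofHom ψ))) := h3'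
  refine ⟨L, hL, ?_⟩
  rw [Dix.InterNum.deg_of_effCartier k' _ h4' I hI L hLI, Dix.InterNum.finrank_quotMod]
  -- the subscheme is `Spec k'`
  let s : T.left ⟶ PicF.XT f T := Picfga.SecGraph.sec f T x hx
  have hs : s ≫ PicF.XTproj f T = 𝟙 _ := pullback.lift_snd _ _ _
  have hsc : IsClosedImmersion s := Picfga.SecGraph.isClosedImmersion_sec (f := f) (T := T) x hx
  obtain ⟨e', he', he'2⟩ := Picfga.SecGraph.exists_iso_ker_subscheme s
  have hh : Dix.InterNum.h0 (I.subschemeι ≫ ((pullback f (Spec.map (CommRingCat.ofHom ψ))) ↘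
      Spec (CommRingCat.of k'))) = 1 := by
    rw [← h0_id k']
    refine Dix.InterNum.h0_congr _ _ (@asIso _ _ _ _ e' he') ?_
    rw [asIso_hom, Category.comp_id]
    have h5 : e' ≫ s ≫ PicF.XTproj f T = s.ker.subschemeι ≫ PicF.XTproj f T := by
      rw [← Category.assoc, he'2]
    rw [hs] at h5
    exact (Category.comp_id e').symm.trans h5
  exact_mod_cast hh

end Groth.Agent.Models.H57.RatPoint
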