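import Groth.Prelude.Def_ModelsG
import Groth.Agent.CurvesB.VABaseChange
import Groth.Agent.Models.H57.GeoInt
import Groth.Agent.Models.H57.ConicPoint
import Groth.Agent.Models.H57.RatPoint
import Groth.Agent.Models.H57.P1End

/-!
# Genus zero curves become projective lines after a separable extension of degree at most two
-/

set_option autoImplicit false
universe u
open CategoryTheory CategoryTheory.Limits AlgebraicGeometry Opposite TopologicalSpace

namespace Groth.Agent.Models.H57.ConicMain

/-- A genus zero smooth proper curve over a field `k` with `H^0(C, O_C) = k` becomes isomorphic to the projective line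
after a separable extension of degree at most two. -/
theorem main (k : Type u) [Field k] (C : Scheme.{u}) (f : C ⟶ Spec (CommRingCat.of k))
    (hC : Curve.IsSmoothProperCurve k C f) (hH0 : IsIso f.appTop) (hg : Models.curveGenus k C f = 0) :
    ∃ (K' : Type u) (_ : Field K') (ψ : k →+* K'),
      Models.IsFiniteSeparable ψ ∧ Models.homDegree ψ ≤ 2 ∧
      ∃ e : (pullback f (Spec.map (CommRingCat.ofHom ψ))) ≅ CohB1.ProjSpace 1 K',
        e.hom ≫ CohB1.ProjSpace.toSpec 1 K' = (pullback.snd f (Spec.map (CommRingCat.ofHom ψ))) := by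
  let _ : C.Over (Spec (CommRingCat.of k)) := ⟨f⟩
  have hC' : Curve.IsSmoothProperCurve k C (C ↘ Spec (CommRingCat.of k)) := hC
  have hprop : IsProper (C ↘ Spec (CommRingCat.of k)) := hC.1
  have h0 := GeoInt.finrank_H0 k C hH0
  have hg' : Curv2.genus k C = 0 := hg
  obtain ⟨x, hx, hsep, hdeg, hfin⟩ := ConicPoint.exists_separable_point k C hC' h0 hg'
  let K' : Type u := C.residueField x
  let ψ : k →+* K' := Curv2.resMap k C x
  have hψ : C.fromSpecResidueField x ≫ f = Spec.map (CommRingCat.ofHom ψ) :=
    (VarietyA.ResMap.specMap_resMap k C x).symm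
  refine ⟨K', inferInstanceAs (Field (C.residueField x)), ψ, ⟨hfin, hsep⟩, hdeg, ?_⟩
  obtain ⟨hX', hH0'⟩ := GeoInt.isSmoothProperCurve_pullback f hC hH0 ψ
  let _ : (pullback f (Spec.map (CommRingCat.ofHom ψ))).Over (Spec (CommRingCat.of K')) :=
    ⟨pullback.snd f (Spec.map (CommRingCat.ofHom ψ))⟩
  obtain ⟨L, hL, hdL⟩ := RatPoint.exists_degree_one f hC ψ hX' (C.fromSpecResidueField x) hψ
  have h0' := GeoInt.finrank_H0 K' (pullback f (Spec.map (CommRingCat.ofHom ψ))) hH0'
  let _ : Algebra k K' := ψ.toAlgebra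
  have hpb : IsPullback (pullback.fst f (Spec.map (CommRingCat.ofHom ψ)))
      ((pullback f (Spec.map (CommRingCat.ofHom ψ))) ↘ Spec (CommRingCat.of K')) (C ↘ Spec (CommRingCat.of k))
      (Spec.map (CommRingCat.ofHom (algebraMap k K'))) := IsPullback.of_hasPullback _ _
  have hg'' : Curv2.genus K' (pullback f (Spec.map (CommRingCat.ofHom ψ))) = 0 :=
    (CurvesB.VABaseChange.genus_eq hpb).trans hg'
  have hprop' : IsProper ((pullback f (Spec.map (CommRingCat.ofHom ψ))) ↘ Spec (CommRingCat.of K')) := hX'.1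
  have hint' : IsIntegral (pullback f (Spec.map (CommRingCat.ofHom ψ))) := hX'.2.2.1
  exact P1End.exists_iso K' _ hX'.2.2.2 h0' hg'' L hL hdL

end Groth.Agent.Models.H57.ConicMain
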